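import Mathlib

/-!
# S5714: the polynomial argument for elements of small order (helper119)
-/

set_option autoImplicit false

namespace Cfsg.Agent.H119.Rg

open Polynomial

section

variable {K ι : Type*} [Field K] [Fintype ι] [DecidableEq ι]

theorem pow_deg (A : Matrix ι ι K[X]) {D : ℕ} (h : ∀ i j, (A i j).natDegree ≤ D) (m : ℕ) :
    (∀ i j, ((A ^ m) i j).natDegree ≤ D * m) ∧
      ∀ i j, ((A ^ m) i j).coeff (D * m) = ((Matrix.of fun i j => (A i j).coeff D) ^ m) i j := by
  induction m with
  | zero =>
    refine ⟨fun i j => ?_, fun i j => ?_⟩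
    · rw [pow_zero, Matrix.one_apply]
      split_ifs <;> simp
    · rw [pow_zero, pow_zero, Matrix.one_apply, Matrix.one_apply, mul_zero]
      split_ifs <;> simp
  | succ m ih =>
    refine ⟨fun i j => ?_, fun i j => ?_⟩
    · rw [pow_succ, Matrix.mul_apply]
      refine natDegree_sum_le_of_forall_le _ _ fun k _ => ?_
      refine natDegree_mul_le.trans ?_
      have h1 := ih.1 i k
      have h2 := h k j
      rw [mul_add, mul_one]
      omega
    · rw [pow_succ, pow_succ, Matrix.mul_apply, Matrix.mul_apply, finsetSum_coeff]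
      refine Finset.sum_congr rfl fun k _ => ?_
      rw [mul_add, mul_one, coeff_mul_add_eq_of_natDegree_le (ih.1 i k) (h k j), ih.2 i k]
      rfl

theorem trace_rank_one (N : Matrix ι ι K) {j0 : ι} (hN : ∀ i j, j ≠ j0 → N i j = 0) {m : ℕ} (hm : 1 ≤ m) :
    (N ^ m).trace = N j0 j0 ^ m := by
  obtain ⟨m, rfl⟩ : ∃ k, m = k + 1 := ⟨m - 1, by omega⟩
  have h1 : ∀ k : ℕ, ∀ i j, (N ^ (k + 1)) i j = N j0 j0 ^ k * N i j := by
    intro k
    induction k with
    | zero => intro i j; simp
    | succ k ih =>
      intro i j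
      rw [pow_succ', Matrix.mul_apply, Finset.sum_eq_single j0]
      · rw [ih]
        by_cases hj : j = j0
        · subst hj; ring
        · rw [hN _ _ hj, hN _ _ hj]; ring
      · intro k' _ hk'
        rw [hN _ _ hk', zero_mul]
      · intro h; exact absurd (Finset.mem_univ _) h
  rw [Matrix.trace, Finset.sum_eq_single j0]
  · rw [Matrix.diag_apply, h1]; ring
  · intro i _ hi
    rw [Matrix.diag_apply, h1, hN _ _ hi, mul_zero]
  · intro h; exact absurd (Finset.mem_univ _) h

/-- the polynomial argument -/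
theorem card_pow_le {T : Type*} [Group T] (R : T →* Matrix ι ι K)
    {F : Type*} [Finite F] (x : F → T) (t : F → K) (ht : Function.Injective t) (P : Matrix ι ι K[X]) {D : ℕ} (hD : 1 ≤ D)
    (hdeg : ∀ i j, (P i j).natDegree ≤ D) (hP : ∀ s, R (x s) = P.map (Polynomial.eval (t s)))
    {i0 j0 : ι} (h0 : ∀ i j, (i, j) ≠ (i0, j0) → (P i j).coeff D = 0) (h1 : (P i0 j0).coeff D ≠ 0)
    (g : T) (hg : R g j0 i0 ≠ 0) (m : ℕ) (hm : 1 ≤ m) : Nat.card {s : F // (g * x s) ^ m = 1} ≤ D * m := by
  classical
  set A : Matrix ι ι K[X] := (R g).map C * P with hA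
  have hAd : ∀ i j, (A i j).natDegree ≤ D := by
    intro i j
    rw [hA, Matrix.mul_apply]
    refine natDegree_sum_le_of_forall_le _ _ fun k _ => ?_
    rw [Matrix.map_apply]
    exact (natDegree_C_mul_le _ _).trans (hdeg k j)
  have hAc : ∀ i j, (A i j).coeff D = if j = j0 then R g i i0 * (P i0 j0).coeff D else 0 := by
    intro i j
    rw [hA, Matrix.mul_apply, finsetSum_coeff]
    simp only [Matrix.map_apply, coeff_C_mul]
    split_ifs with hj
    · subst hj
      rw [Finset.sum_eq_single i0]
      · intro k _ hk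
        rw [h0 k j (fun h => hk (Prod.mk.inj h).1), mul_zero]
      · intro h; exact absurd (Finset.mem_univ _) h
    · refine Finset.sum_eq_zero fun k _ => ?_
      rw [h0 k j (fun h => hj (Prod.mk.inj h).2), mul_zero]
  set Q : K[X] := (A ^ m).trace - C (Fintype.card ι : K) with hQ
  have hpd := pow_deg A hAd m
  have hDm : 0 < D * m := Nat.mul_pos hD hm
  have hQd : Q.natDegree ≤ D * m := by
    refine (natDegree_sub_le _ _).trans (max_le ?_ ?_)
    · rw [Matrix.trace]
      exact natDegree_sum_le_of_forall_le _ _ fun k _ => hpd.1 k k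
    · rw [natDegree_C]; exact Nat.zero_le _
  have hQc : Q.coeff (D * m) ≠ 0 := by
    have e1 : Q.coeff (D * m) = ((Matrix.of fun i j => (A i j).coeff D) ^ m).trace := by
      rw [hQ, coeff_sub, coeff_C, if_neg hDm.ne', sub_zero, Matrix.trace, finsetSum_coeff, Matrix.trace]
      exact Finset.sum_congr rfl fun k _ => hpd.2 k k
    rw [e1, trace_rank_one _ (j0 := j0) (fun i j hj => by rw [Matrix.of_apply, hAc, if_neg hj]) hm]
    rw [Matrix.of_apply, hAc, if_pos rfl]
    exact pow_ne_zero _ (mul_ne_zero hg h1)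
  have hQ0 : Q ≠ 0 := fun h => hQc (by rw [h, coeff_zero])
  have hroot : ∀ s : F, (g * x s) ^ m = 1 → Q.IsRoot (t s) := by
    intro s hs
    have e1 : R ((g * x s) ^ m) = ((A ^ m).map (Polynomial.eval (t s))) := by
      rw [map_pow, map_mul, hP]
      have e2 : A.map (Polynomial.eval (t s)) = R g * P.map (Polynomial.eval (t s)) := by
        rw [hA]
        have e3 := Matrix.map_mul (L := (R g).map C) (M := P) (f := Polynomial.evalRingHom (t s))
        rw [Polynomial.coe_evalRingHom] at e3
        rw [e3]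
        congr 1
        ext i j
        simp
      rw [← e2]
      have e4 := map_pow (Polynomial.evalRingHom (t s)).mapMatrix A m
      simp only [RingHom.mapMatrix_apply, Polynomial.coe_evalRingHom] at e4
      exact e4.symm
    rw [hs, map_one] at e1
    rw [IsRoot, hQ, eval_sub, eval_C, Matrix.trace, eval_finsetSum]
    have e5 : ∀ i : ι, Polynomial.eval (t s) ((A ^ m) i i) = 1 := by
      intro i
      have e6 := congrFun (congrFun e1 i) i
      rw [Matrix.one_apply_eq, Matrix.map_apply] at e6
      exact e6.symm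
    have e7 : ∑ i : ι, Polynomial.eval (t s) ((A ^ m).diag i) = (Fintype.card ι : K) := by
      simp only [Matrix.diag_apply, e5]
      simp
    rw [e7, sub_self]
  have h2 : Nat.card {s : F // (g * x s) ^ m = 1} ≤ Nat.card {a : K // a ∈ Q.roots.toFinset} := by
    refine Nat.card_le_card_of_injective (fun s => ⟨t s.1, ?_⟩) ?_
    · rw [Multiset.mem_toFinset, mem_roots hQ0]
      exact hroot s.1 s.2
    · intro a b hab
      exact Subtype.ext (ht (congrArg Subtype.val hab))
  refine h2.trans ?_
  rw [Nat.card_eq_fintype_card, Fintype.card_coe]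
  exact (Multiset.toFinset_card_le _).trans ((card_roots' Q).trans hQd)

end

end Cfsg.Agent.H119.Rg
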