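import Cfsg.Agent.LieRecognition.ReeFinal
import Cfsg.Agent.LieRecognition.ReeTorusTw
import Cfsg.Agent.LieRecognition.ReeSetup
import Cfsg.Agent.S1116

/-!
# S5714: centralisers in the small Ree groups (helper119)

`card_cent_le` : `|C(x)| ≤ 8 q³` for `x ≠ 1`.
-/

set_option autoImplicit false
set_option linter.unusedSectionVars false

namespace Cfsg.Agent.H119.Rg

open Subgroup
open Cfsg.Agent.LieRecognition
open Cfsg.Agent.LieRecognition.ReeInv
open Cfsg.Agent.LieRecognition.ReeTorusB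
open Cfsg.Agent.LieRecognition.ReeClass

variable {G : Type*} [Group G] [Finite G] {q : ℕ} {U B H A N : Subgroup G}
variable {L : Type*} [Group L] {a : G} {f : L →* G} {i j u t₀ : L} {T : Subgroup L}

/-- centralisers of conjugate elements -/
theorem card_cent_conj (x g : G) :
    Nat.card (centralizer {x} : Subgroup G) = Nat.card (centralizer {g⁻¹ * x * g} : Subgroup G) := by
  refine Nat.card_congr
    { toFun := fun y => ⟨g⁻¹ * y * g, ?_⟩
      invFun := fun y => ⟨g * y * g⁻¹, ?_⟩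
      left_inv := fun y => Subtype.ext (by show g * (g⁻¹ * _ * g) * g⁻¹ = _; group)
      right_inv := fun y => Subtype.ext (by show g⁻¹ * (g * _ * g⁻¹) * g = _; group) }
  · have h1 := mem_centralizer_singleton_iff.1 y.2
    exact mem_centralizer_singleton_iff.2 (conj_comm h1 g)
  · have h1 := mem_centralizer_singleton_iff.1 y.2
    have h2 := conj_comm h1 g⁻¹
    rw [inv_inv] at h2
    refine mem_centralizer_singleton_iff.2 ?_
    have e : g * (g⁻¹ * x * g) * g⁻¹ = x := by group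
    rwa [e] at h2

/-- `16 ∤ (q - 1) (q³ + 1)` -/
theorem not_sixteen (h8 : q % 8 = 3) : ¬ 16 ∣ (q - 1) * (q ^ 3 + 1) := by
  obtain ⟨k, hk⟩ : ∃ k, q = 8 * k + 3 := ⟨q / 8, by omega⟩
  subst hk
  have e : (8 * k + 3 - 1) * ((8 * k + 3) ^ 3 + 1) =
      16 * ((4 * k + 1) * (64 * k ^ 3 + 72 * k ^ 2 + 27 * k + 3) + 2 * k) + 8 := by
    have : 8 * k + 3 - 1 = 8 * k + 2 := by omega
    rw [this]; ring
  rw [e]
  omega

/-- centralisers of the nontrivial elements of `U` -/
theorem card_cent_U (D : Local G q U B H A N) (ar : Arith q) {y : G} (hy : y ∈ U) (hy1 : y ≠ 1) :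
    Nat.card (centralizer {y} : Subgroup G) ≤ 8 * q ^ 3 := by
  have h8 := ar.q8
  have hn := Subgroup.card_subgroup_dvd_card (centralizer {y} : Subgroup G)
  rw [D.card_G, mul_assoc] at hn
  have hpr : ∀ p : ℕ, p.Prime → p ∣ Nat.card (centralizer {y} : Subgroup G) → p = 2 ∨ p = 3 := by
    intro p hp hpn
    have : Fact p.Prime := ⟨hp⟩
    obtain ⟨⟨z, hz⟩, hzo⟩ := exists_prime_orderOf_dvd_card' p hpn
    rw [Subgroup.orderOf_mk] at hzo
    have h1 := (D.cent_U y hy hy1 z (mem_centralizer_singleton_iff.1 hz)).1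
    have h2 := orderOf_dvd_of_pow_eq_one h1
    rw [hzo, show (18 : ℕ) = 2 * 3 ^ 2 by norm_num, hp.dvd_mul] at h2
    rcases h2 with h2 | h2
    · exact Or.inl ((Nat.prime_dvd_prime_iff_eq hp Nat.prime_two).1 h2)
    · exact Or.inr ((Nat.prime_dvd_prime_iff_eq hp Nat.prime_three).1 (hp.dvd_of_dvd_pow h2))
  generalize Nat.card (centralizer {y} : Subgroup G) = n at hn hpr
  have hq0 : 0 < q := by omega
  have h1 : n ∣ Nat.gcd n (q ^ 3) * Nat.gcd n ((q - 1) * (q ^ 3 + 1)) := by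
    have h2 := Nat.gcd_mul_right_dvd_mul_gcd n (q ^ 3) ((q - 1) * (q ^ 3 + 1))
    rwa [Nat.gcd_eq_left hn] at h2
  have hM0 : 0 < (q - 1) * (q ^ 3 + 1) := Nat.mul_pos (by omega) (Nat.succ_pos _)
  have h2 : Nat.gcd n (q ^ 3) ≤ q ^ 3 := Nat.gcd_le_right _ (by positivity)
  have h3 : Nat.gcd n ((q - 1) * (q ^ 3 + 1)) ≤ 8 := by
    have hdM : Nat.gcd n ((q - 1) * (q ^ 3 + 1)) ∣ (q - 1) * (q ^ 3 + 1) := Nat.gcd_dvd_right _ _
    rcases Nat.eq_two_pow_or_exists_odd_prime_and_dvd (Nat.gcd n ((q - 1) * (q ^ 3 + 1))) with ⟨k, hk⟩ | ⟨p, hp, hpd, hpo⟩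
    · rw [hk] at hdM ⊢
      have hk3 : k ≤ 3 := by
        by_contra hcon
        exact not_sixteen h8 ((pow_dvd_pow 2 (by omega : 4 ≤ k)).trans hdM)
      exact (Nat.pow_le_pow_right (by norm_num) hk3)
    · exfalso
      have h4 := hpr p hp (hpd.trans (Nat.gcd_dvd_left _ _))
      rcases h4 with rfl | rfl
      · exact absurd hpo (by decide)
      · have h5 := hpd.trans hdM
        rw [Nat.prime_three.dvd_mul] at h5
        rcases h5 with h5 | h5
        · exact ar.three_not.2.1 h5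
        · exact ar.three_not.2.2.2 h5
  have h4 := Nat.le_of_dvd (Nat.mul_pos (Nat.gcd_pos_of_pos_right _ (by positivity))
    (Nat.gcd_pos_of_pos_right _ hM0)) h1
  calc n ≤ Nat.gcd n (q ^ 3) * Nat.gcd n ((q - 1) * (q ^ 3 + 1)) := h4
    _ ≤ q ^ 3 * 8 := Nat.mul_le_mul h2 h3
    _ = 8 * q ^ 3 := mul_comm _ _

/-- **centralisers of nontrivial elements** -/
theorem card_cent_le (D : Local G q U B H A N) (ar : Arith q)
    (S : Setup G L q a f i j u t₀ T) {x : G} (hx : x ≠ 1) :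
    Nat.card (centralizer {x} : Subgroup G) ≤ 8 * q ^ 3 := by
  have h8 := ar.q8
  have hq3 : q ≤ q ^ 3 := Nat.le_self_pow (by norm_num) q
  have hca : Nat.card (centralizer {a} : Subgroup G) ≤ 8 * q ^ 3 := by
    rw [card_centralizer S]
    calc q * (q ^ 2 - 1) ≤ q * q ^ 2 := Nat.mul_le_mul_left _ (Nat.sub_le _ _)
      _ = q ^ 3 := by ring
      _ ≤ 8 * q ^ 3 := by omega
  have hox : orderOf x ≠ 1 := fun h => hx (orderOf_eq_one_iff.1 h)
  obtain ⟨p, hp, hpx⟩ := Nat.exists_prime_and_dvd hox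
  have : Fact p.Prime := ⟨hp⟩
  have hpos : 0 < orderOf x := orderOf_pos x
  have hy : orderOf (x ^ (orderOf x / p)) = p := by
    obtain ⟨k, hk⟩ := hpx
    have hk0 : 0 < k := by
      rcases Nat.eq_zero_or_pos k with h | h
      · rw [h, mul_zero] at hk; omega
      · exact h
    rw [orderOf_pow_of_dvd]
    · rw [hk, Nat.mul_div_cancel_left _ hp.pos, Nat.mul_div_cancel _ hk0]
    · rw [hk, Nat.mul_div_cancel_left _ hp.pos]; omega
    · exact Nat.div_dvd_of_dvd ⟨k, hk⟩
  have hle : (centralizer {x} : Subgroup G) ≤ centralizer {x ^ (orderOf x / p)} := by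
    intro z hz
    have h1 : Commute z x := mem_centralizer_singleton_iff.1 hz
    exact mem_centralizer_singleton_iff.2 (h1.pow_right _).eq
  refine (Subgroup.card_le_of_le hle).trans ?_
  set y := x ^ (orderOf x / p) with hyx
  have hy1 : y ≠ 1 := by
    intro h
    rw [h, orderOf_one] at hy
    exact hp.one_lt.ne hy
  by_cases hp2 : p = 2
  · subst hp2
    have hyy : y * y = 1 := by rw [← pow_two, ← hy, pow_orderOf_eq_one]
    obtain ⟨c, hc⟩ := S.conjG y hy1 hyy
    rw [card_cent_conj y c, ← hc]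
    have e : c⁻¹ * (c * a * c⁻¹) * c = a := by group
    rw [e]
    exact hca
  have hpG : p ∣ q ^ 3 * (q - 1) * ((q + 1) * (q ^ 2 - q + 1)) := by
    rw [← ar.cube, ← D.card_G, ← hy]
    exact orderOf_dvd_natCard y
  rw [hp.dvd_mul, hp.dvd_mul, hp.dvd_mul] at hpG
  rcases hpG with (h1 | h1) | (h1 | h1)
  · have h3 : p = 3 := ar.eq_three p hp (hp.dvd_of_dvd_pow h1)
    subst h3
    obtain ⟨g, hg⟩ := ReeGeneric.exists_conj_mem_of_orderOf U (index_U D ar) hy
    rw [card_cent_conj y g]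
    exact card_cent_U D ar hg (conj_ne hy1 g)
  · have hpos : 0 < (q - 1) / 2 := by omega
    obtain ⟨g, hg⟩ := ReeGeneric.exists_conj_mem_of_orderOf A (index_A D ar hpos hp hp2 h1) hy
    rw [card_cent_conj y g]
    have h2 : (centralizer {g⁻¹ * y * g} : Subgroup G) ≤ H := fun z hz =>
      D.cent_A _ hg (conj_ne hy1 g) _ (mem_centralizer_singleton_iff.1 hz)
    have h3 := Subgroup.card_le_of_le h2
    rw [D.card_H] at h3
    omega
  · obtain ⟨g, hg⟩ := ReeGeneric.exists_conj_mem_of_orderOf S.A (index_S D ar S hp hp2 h1) hy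
    rw [card_cent_conj y g]
    have h2 : (centralizer {g⁻¹ * y * g} : Subgroup G) ≤ centralizer {a} := fun z hz =>
      mem_centralizer_singleton_iff.2 (S.EA_comm (S.cent_x hg (conj_ne hy1 g) (mem_centralizer_singleton_iff.1 hz))
        (S.V_le_EA S.a_mem))
    exact (Subgroup.card_le_of_le h2).trans hca
  · have h2 := card_centralizer_dvd D ar S hy1 (by rw [hy]; exact h1)
    have h3 := Nat.le_of_dvd (by omega) h2
    have h4 : q ^ 2 ≤ q ^ 3 := Nat.pow_le_pow_right (by omega) (by norm_num)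
    omega

/-- the same for `²G₂(q)` -/
theorem card_cent_ree {K : Type*} [Field K] [Fintype K] {m : ℕ} (hm : 1 ≤ m) (hK : Fintype.card K = 3 ^ (2 * m + 1))
    (x : ↥(Cfsg.Lie.twistedG2 K (3 ^ m))) (hx : x ≠ 1) :
    Nat.card (centralizer {x} : Subgroup ↥(Cfsg.Lie.twistedG2 K (3 ^ m))) ≤ 8 * (3 ^ (2 * m + 1)) ^ 3 := by
  have hfin : Finite ↥(Cfsg.Lie.twistedG2 K (3 ^ m)) := by
    apply Nat.finite_of_card_ne_zero
    rw [Cfsg.Agent.LieRecognition.ReeFinal.card hK]
    have h1 : 0 < 3 ^ (2 * m + 1) := by positivity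
    have h2 : 0 < 3 ^ (2 * m + 1) - 1 := by
      have : 3 ^ 1 ≤ 3 ^ (2 * m + 1) := Nat.pow_le_pow_right (by norm_num) (by omega)
      omega
    positivity
  have hch : CharP K 3 := Cfsg.Agent.LieRecognition.ReeAbs.charP_three hK
  have D := Cfsg.Agent.LieRecognition.ReeFinal.data hK
  have Dl := Cfsg.Agent.LieRecognition.ReeSetup.local_of_data D hK
  obtain ⟨f, t₀, S⟩ := Cfsg.Agent.LieRecognition.ReeSetup.exists_setup D hK (Cfsg.Agent.S1116.result hK hm) Dl
  exact card_cent_le Dl (ReeClass.arith m) S hx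

end Cfsg.Agent.H119.Rg
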