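import Cfsg.Agent.H147.ReeTrace

/-!
# S5714: the central root elements of the small Ree groups as polynomial matrices (helper119)
-/

set_option autoImplicit false
set_option linter.unusedSectionVars false

namespace Cfsg.Agent.H119.Rg

open Cfsg.Lie Cfsg.Agent.ChevalleyStructure.WordCheck Cfsg.Agent.ChevalleyStructure.WordEntry
open Cfsg.Agent.ChevalleyStructure.Ree.Bracket Cfsg.Agent.ChevalleyStructure.Ree.Good
open Cfsg.Agent.ChevalleyStructure.Ree.Checks Cfsg.Agent.ChevalleyStructure.Ree.Words
open Cfsg.Agent.ChevalleyStructure.Ree.Gens Cfsg.Agent.ChevalleyStructure.Ree.Bruhat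
open Cfsg.Agent.ChevalleyStructure.Ree.Blocks
open Cfsg.Agent.ChevalleyStructure (ReeFixed.IsTheta ReeFixed.exists_theta)
open Cfsg.Agent.LieRecognition Cfsg.Agent.LieRecognition.ReeData
open Polynomial

/-- the word of `U(0,0,v)` -/
def w0 : List (ℕ × PExpr) :=
  [(7, .const 0), (6, .const 0), (8, .add (.mul (.const 0) (.const 0)) (.const 0)),
   (9, .add (.mul (.pow (.const 0) 2) (.const 0)) (.var 1)), (10, .const 0), (11, .var 0)]

/-- the entries of `U(0,0,v)` -/
def tb (i j : Fin 7) : PExpr :=
  if i = j then .const 1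
  else if i = 3 ∧ j = 0 then .neg (.var 1)
  else if i = 4 ∧ j = 1 then .var 1
  else if i = 5 ∧ j = 2 then .neg (.var 1)
  else if i = 6 ∧ j = 3 then .neg (.var 1)
  else if i = 5 ∧ j = 0 then .var 0
  else if i = 6 ∧ j = 1 then .neg (.var 0)
  else if i = 6 ∧ j = 0 then .neg (.mul (.var 1) (.var 1))
  else .const 0

/-- the nonzero entries -/
def nz (i j : Fin 7) : Bool :=
  i = j || (i.val == j.val + 3) || (i = 5 && j = 0) || (i = 6 && j = 1) || (i = 6 && j = 0)

theorem check_tb : ∀ i j : Fin 7, nz i j = true → entryIs chevG2 3 0 2 (xw w0) (Sc i) (Sc j) (tb i j) = true := by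
  decide +kernel

theorem check_z : ∀ i j : Fin 7, nz i j = false → entryZero chevG2 3 0 2 (xw w0) (Sc i) (Sc j) = true := by
  decide +kernel

theorem tb_z (i j : Fin 7) (h : nz i j = false) : tb i j = .const 0 := by
  unfold tb
  fin_cases i <;> fin_cases j <;> first | rfl | exact absurd h (by decide)

variable {K : Type*} [Field K]

/-- the environment -/
def env {R : Type*} [Zero R] (a b : R) : ℕ → R := fun k => [a, b].getD k 0

theorem wval_w0 (v V : K) : wval (Agent.ChevalleyStructure.ReeFixed.val 0 0 0 0 v V) Agent.ChevalleyStructure.ReeFixed.wU1 =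
    wval (env v V) w0 := by
  simp [wval, Agent.ChevalleyStructure.ReeFixed.wU1, w0, PExpr.denote, Agent.ChevalleyStructure.ReeFixed.val, env]

variable [Fintype K] {m : ℕ} (hK : Fintype.card K = 3 ^ (2 * m + 1))

include hK in
theorem bl_Z (v : K) (i j : Fin 7) : bl (U m (0 : K) 0 v) i j = (tb i j).denote (env v (v ^ (3 ^ m))) := by
  obtain ⟨h3, θ, hθ⟩ := ReeFixed.exists_theta hK
  have h3' : (3 : K) = 0 := by exact_mod_cast h3
  have hpow : θ v = v ^ (3 ^ m) := hθ.1 v
  unfold bl
  rw [Mb_apply]
  show ((wU (3 ^ m) (0 : K) 0 v : GL chevG2.Idx K) : Matrix chevG2.Idx chevG2.Idx K) (S i) (S j) = _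
  rw [coe_wU' hθ, wW, wmat_xw, map_zero, wval_w0, ← wmat_xw, hpow]
  cases h : nz i j
  · rw [tb_z i j h]
    show _ = ((0 : ℤ) : K)
    rw [Int.cast_zero]
    refine entryZero_sound (ch := 3) (L := 0) (nv := 2) ?_ (by exact_mod_cast h3)
      (fun i hi => absurd hi (Nat.not_lt_zero _))
    rw [code_S, code_S]
    exact check_z i j h
  · refine entryIs_sound (ch := 3) (L := 0) (nv := 2) ?_ (by exact_mod_cast h3)
      (fun i hi => absurd hi (Nat.not_lt_zero _))
    rw [code_S, code_S]
    exact check_tb i j h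

theorem denote_map {R S : Type*} [CommRing R] [CommRing S] (f : R →+* S) (ρ : ℕ → R) (e : PExpr) :
    f (e.denote ρ) = e.denote (fun k => f (ρ k)) := by
  induction e with
  | var i => rfl
  | const z => simp [PExpr.denote]
  | add a b iha ihb => simp [PExpr.denote, iha, ihb]
  | mul a b iha ihb => simp [PExpr.denote, iha, ihb]
  | neg a ih => simp [PExpr.denote, ih]
  | pow a n ih => simp [PExpr.denote, ih]

/-- the polynomial matrix -/
noncomputable def PP (K : Type*) [Field K] (m : ℕ) : Matrix (Fin 7) (Fin 7) K[X] :=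
  Matrix.of fun i j => (tb i j).denote (env Polynomial.X (Polynomial.X ^ (3 ^ m)))

include hK in
theorem PP_eval (v : K) : bl (U m (0 : K) 0 v) = (PP K m).map (Polynomial.eval v) := by
  ext i j
  rw [bl_Z hK, Matrix.map_apply, PP, Matrix.of_apply]
  have h1 := denote_map (Polynomial.evalRingHom v) (env Polynomial.X (Polynomial.X ^ (3 ^ m))) (tb i j)
  rw [Polynomial.coe_evalRingHom] at h1
  rw [h1]
  congr 1
  funext k
  rcases k with _ | _ | k
  · simp [env]
  · simp [env]
  · simp [env]

theorem PP_deg (i j : Fin 7) : (PP K m i j).natDegree ≤ 2 * 3 ^ m := by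
  have h1 : 1 ≤ 3 ^ m := Nat.one_le_pow _ _ (by norm_num)
  have h2 : (Polynomial.X ^ 3 ^ m : K[X]).natDegree ≤ 3 ^ m := natDegree_X_pow_le _
  unfold PP tb
  rw [Matrix.of_apply]
  split_ifs
  · simp [PExpr.denote]
  · simp only [PExpr.denote, env, List.getD_cons_zero, List.getD_cons_succ, natDegree_neg]; omega
  · simp only [PExpr.denote, env, List.getD_cons_zero, List.getD_cons_succ, natDegree_neg]; omega
  · simp only [PExpr.denote, env, List.getD_cons_zero, List.getD_cons_succ, natDegree_neg]; omega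
  · simp only [PExpr.denote, env, List.getD_cons_zero, List.getD_cons_succ, natDegree_neg]; omega
  · simp only [PExpr.denote, env, List.getD_cons_zero, List.getD_cons_succ, natDegree_X]; omega
  · simp only [PExpr.denote, env, List.getD_cons_zero, List.getD_cons_succ, natDegree_neg, natDegree_X]; omega
  · simp only [PExpr.denote, env, List.getD_cons_zero, List.getD_cons_succ, natDegree_neg]
    rw [← pow_add]
    refine (natDegree_X_pow_le _).trans ?_
    omega
  · simp [PExpr.denote]

theorem PP_coeff (hm : 1 ≤ m) (i j : Fin 7) (hij : (i, j) ≠ (6, 0)) : (PP K m i j).coeff (2 * 3 ^ m) = 0 := by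
  have h1 : 3 ≤ 3 ^ m := Nat.le_self_pow (by omega) 3
  unfold PP tb
  rw [Matrix.of_apply]
  split_ifs with h h h h h h h h
  · simp only [PExpr.denote, Int.cast_one]
    rw [coeff_one, if_neg (by omega)]
  · simp only [PExpr.denote, env, List.getD_cons_zero, List.getD_cons_succ, coeff_neg, coeff_X_pow]
    rw [if_neg (by omega), neg_zero]
  · simp only [PExpr.denote, env, List.getD_cons_zero, List.getD_cons_succ, coeff_X_pow]
    rw [if_neg (by omega)]
  · simp only [PExpr.denote, env, List.getD_cons_zero, List.getD_cons_succ, coeff_neg, coeff_X_pow]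
    rw [if_neg (by omega), neg_zero]
  · simp only [PExpr.denote, env, List.getD_cons_zero, List.getD_cons_succ, coeff_neg, coeff_X_pow]
    rw [if_neg (by omega), neg_zero]
  · simp only [PExpr.denote, env, List.getD_cons_zero]
    rw [coeff_X, if_neg (by omega)]
  · simp only [PExpr.denote, env, List.getD_cons_zero, coeff_neg]
    rw [coeff_X, if_neg (by omega), neg_zero]
  · exact absurd (Prod.ext h.1 h.2) hij
  · simp [PExpr.denote]

theorem PP_top : (PP K m 6 0).coeff (2 * 3 ^ m) = -1 := by
  have e : PP K m 6 0 = -(Polynomial.X ^ 3 ^ m * Polynomial.X ^ 3 ^ m) := rfl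
  rw [e, ← pow_add, ← two_mul, coeff_neg, coeff_X_pow, if_pos rfl]

end Cfsg.Agent.H119.Rg
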